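import Mathlib
import Cfsg.Agent.Lib.Helper50.HUPT.Defs

/-!
# HUPT project (S3360), package [CENT]

Under (NI), an element `x` of order a primitive prime divisor `p` of `q ^ n - 1` centralizes every
abelian normal subgroup `A`.
-/

set_option autoImplicit false

universe u v

namespace Cfsg.Agent.Lib.Helper47.HUPT

open Cfsg.Agent.Lib.Helper50.HUPT
open Cfsg.Agent.Lib.Helper49.HUP (Irr)

section

variable {q : ℕ} [Fact q.Prime] {V : Type u} [AddCommGroup V] [Module (ZMod q) V]
  {G : Type v} [Group G]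

theorem toE_mul' (ρ : G →* (V ≃ₗ[ZMod q] V)) (g h : G) :
    toE ρ (g * h) = toE ρ g * toE ρ h := by
  apply LinearMap.ext
  intro v
  simp [toE]

theorem toE_one' (ρ : G →* (V ≃ₗ[ZMod q] V)) : toE ρ (1 : G) = 1 := by
  apply LinearMap.ext
  intro v
  simp [toE]

theorem toE_inj' (ρ : G →* (V ≃ₗ[ZMod q] V)) (hρ : Function.Injective ρ) (g h : G)
    (hgh : toE ρ g = toE ρ h) : g = h := by
  apply hρ
  apply LinearEquiv.toLinearMap_injective
  exact hgh

/-- conjugation by `toE ρ x` preserves `KA ρ A` for normal `A` -/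
theorem conj_mem_KA (ρ : G →* (V ≃ₗ[ZMod q] V)) (A : Subgroup G) (hA : A.Normal) (x : G)
    (f : Module.End (ZMod q) V) (hf : f ∈ KA ρ A) :
    toE ρ x * f * toE ρ x⁻¹ ∈ KA ρ A := by
  have hxx : toE ρ x * toE ρ x⁻¹ = 1 := by
    rw [← toE_mul', mul_inv_cancel, toE_one']
  have hxx' : toE ρ x⁻¹ * toE ρ x = 1 := by
    rw [← toE_mul', inv_mul_cancel, toE_one']
  unfold KA at hf ⊢
  induction hf using Algebra.adjoin_induction with
  | mem f hf =>
    obtain ⟨a, ha, rfl⟩ := hf
    apply Algebra.subset_adjoin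
    refine ⟨x * a * x⁻¹, hA.conj_mem a ha x, ?_⟩
    rw [toE_mul', toE_mul']
  | algebraMap r =>
    have : toE ρ x * (algebraMap (ZMod q) (Module.End (ZMod q) V) r) * toE ρ x⁻¹
        = algebraMap (ZMod q) (Module.End (ZMod q) V) r := by
      rw [← Algebra.commutes r (toE ρ x), mul_assoc, hxx, mul_one]
    rw [this]
    exact Subalgebra.algebraMap_mem _ r
  | add f g _ _ hf hg =>
    have : toE ρ x * (f + g) * toE ρ x⁻¹
        = toE ρ x * f * toE ρ x⁻¹ + toE ρ x * g * toE ρ x⁻¹ := by
      rw [mul_add, add_mul]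
    rw [this]
    exact Subalgebra.add_mem _ hf hg
  | mul f g _ _ hf hg =>
    have : toE ρ x * (f * g) * toE ρ x⁻¹
        = (toE ρ x * f * toE ρ x⁻¹) * (toE ρ x * g * toE ρ x⁻¹) := by
      calc toE ρ x * (f * g) * toE ρ x⁻¹
          = toE ρ x * f * 1 * g * toE ρ x⁻¹ := by simp only [mul_one, mul_assoc]
        _ = (toE ρ x * f * toE ρ x⁻¹) * (toE ρ x * g * toE ρ x⁻¹) := by
            rw [← hxx']
            simp only [mul_assoc]
    rw [this]
    exact Subalgebra.mul_mem _ hf hg

end

/-- [CENT] -/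
theorem pkgCent (hCnt : PkgCnt.{u}) (hAbn : PkgAbn.{u, v}) : PkgCent.{u, v} := by
  intro q _ V _ _ _ _ G _ _ ρ hρ hTr hNI n p hn hV hPPD x hx A hA hAb a ha
  classical
  obtain ⟨hcyc, hfld, hlt⟩ := hAbn ρ hρ hTr A hA hAb
  have hnirr : ¬ Irr ρ A := fun h => hNI ⟨A, hA, hcyc, h⟩
  have hKlt := hlt hnirr
  set K := KA ρ A with hKdef
  have hq : q.Prime := Fact.out
  have : Finite (Module.End (ZMod q) V) :=
    Finite.of_injective (fun f : Module.End (ZMod q) V => (f : V → V)) DFunLike.coe_injective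
  have : Finite K := Subtype.finite
  -- the cardinality of K
  have hcardK : Nat.card K = q ^ Module.finrank (ZMod q) K := by
    rw [Module.natCard_eq_pow_finrank (K := ZMod q) (V := K), Nat.card_zmod]
  set k := Module.finrank (ZMod q) K with hk
  have hkn : k < n := by
    rw [hcardK, hV] at hKlt
    exact (Nat.pow_lt_pow_iff_right hq.one_lt).1 hKlt
  -- the conjugation map
  let φ : K →+ K :=
    { toFun := fun f => ⟨toE ρ x * (f : Module.End (ZMod q) V) * toE ρ x⁻¹,
        conj_mem_KA ρ A hA x _ f.2⟩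
      map_zero' := by
        apply Subtype.ext
        simp
      map_add' := by
        intro f g
        apply Subtype.ext
        simp [mul_add, add_mul] }
  have hφk : ∀ (j : ℕ) (f : K), ((φ^[j] f : K) : Module.End (ZMod q) V)
      = toE ρ (x ^ j) * (f : Module.End (ZMod q) V) * toE ρ (x ^ j)⁻¹ := by
    intro j
    induction j with
    | zero =>
      intro f
      simp [toE_one']
    | succ j ih =>
      intro f
      rw [Function.iterate_succ_apply']
      change toE ρ x * ((φ^[j] f : K) : Module.End (ZMod q) V) * toE ρ x⁻¹ = _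
      rw [ih f, pow_succ', mul_inv_rev, toE_mul', toE_mul']
      simp only [mul_assoc]
  have hxp : x ^ p = 1 := by
    rw [← hx]
    exact pow_orderOf_eq_one x
  have hiter : ∀ f : K, φ^[p] f = f := by
    intro f
    apply Subtype.ext
    rw [hφk, hxp, inv_one, toE_one', one_mul, mul_one]
  rcases hCnt hPPD φ k (le_of_lt hkn) hcardK hiter with h | h
  · have hmem : toE ρ a ∈ K := Algebra.subset_adjoin ⟨a, ha, rfl⟩
    have h1 := congrArg Subtype.val (h ⟨toE ρ a, hmem⟩)
    change toE ρ x * toE ρ a * toE ρ x⁻¹ = toE ρ a at h1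
    rw [← toE_mul', ← toE_mul'] at h1
    have h2 := toE_inj' ρ hρ _ _ h1
    calc x * a = (x * a * x⁻¹) * x := by group
      _ = a * x := by rw [h2]
  · exact absurd h.1 (ne_of_lt hkn)

end Cfsg.Agent.Lib.Helper47.HUPT
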