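import Mathlib
import Cfsg.Agent.Lib.Helper50.HUPT.Defs
import Cfsg.Agent.S0009
import Cfsg.Agent.S0044

/-!
# HUPT package [FIT] (helper47)

In a solvable transitive linear group without normal cyclic irreducible subgroup, an element `x`
whose order is a primitive prime divisor `p` of `q ^ n - 1` fails to centralise some normal
`r`-subgroup with `r ≠ p`.
-/

set_option autoImplicit false

namespace Cfsg.Agent.Lib.Helper47.HUPT

open Cfsg.Agent.Lib.Helper50.HUPT

universe u v

/-- the `r`-core is a normal subgroup -/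
theorem fit_pCore_normal {G : Type v} [Group G] (r : ℕ) : (Cfsg.pCore r G).Normal :=
  Subgroup.sSup_normal _ (fun _ h => h.1)

/-- the Fitting subgroup is a normal subgroup -/
theorem fit_fitting_normal {G : Type v} [Group G] : (Cfsg.fittingSubgroup G).Normal :=
  Subgroup.sSup_normal _ (fun _ h => h.1)

/-- the centre `ZM M` of a normal subgroup is normal -/
theorem fit_ZM_normal {G : Type v} [Group G] (M : Subgroup G) (hM : M.Normal) :
    (ZM M).Normal := by
  haveI := hM
  refine ⟨fun a ha g => ?_⟩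
  have haM : a ∈ M := ha.1
  have haC : a ∈ Subgroup.centralizer (M : Set G) := ha.2
  refine ⟨hM.conj_mem a haM g, ?_⟩
  show g * a * g⁻¹ ∈ Subgroup.centralizer (M : Set G)
  rw [Subgroup.mem_centralizer_iff] at haC ⊢
  intro h hh
  have h1 : g⁻¹ * h * g ∈ M := by
    have := hM.conj_mem h hh g⁻¹
    simpa using this
  have h2 := haC (g⁻¹ * h * g) h1
  calc h * (g * a * g⁻¹) = g * ((g⁻¹ * h * g) * a) * g⁻¹ := by group
    _ = g * (a * (g⁻¹ * h * g)) * g⁻¹ := by rw [h2]
    _ = g * a * g⁻¹ * h := by group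

/-- the centre `ZM M` is abelian -/
theorem fit_ZM_ab {G : Type v} [Group G] (M : Subgroup G) : Ab (ZM M) := by
  intro a ha b hb
  have hbC : b ∈ Subgroup.centralizer (M : Set G) := hb.2
  rw [Subgroup.mem_centralizer_iff] at hbC
  exact hbC a ha.1

/-- [FIT] -/
theorem pkgFit (hNop : PkgNop.{u, v}) : PkgFit.{u, v} := by
  intro q _ V _ _ _ _ G _ _ ρ hsolv hinj htr hni n p hn hcard hppd x hx
  haveI := hsolv
  have hp : p.Prime := hppd.1
  haveI : Fact p.Prime := ⟨hp⟩
  -- no normal abelian subgroup has order divisible by `p`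
  have key : ∀ A : Subgroup G, A.Normal → Ab A → ¬ p ∣ Nat.card A :=
    fun A hA hab => hNop ρ hinj htr hni n p hn hcard hppd A hA hab
  by_contra hcon
  push Not at hcon
  -- `x` centralises the `p`-core
  have hp_core : ∀ a ∈ Cfsg.pCore p G, x * a = a * x := by
    by_contra hne
    push Not at hne
    obtain ⟨a, ha, hxa⟩ := hne
    have hR : IsPGroup p (Cfsg.pCore p G) := Cfsg.Agent.Lib.Helper55.pCore_isPGroup p G
    haveI : Nontrivial (Cfsg.pCore p G) := by
      refine ⟨⟨⟨a, ha⟩, 1, ?_⟩⟩
      intro h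
      have h1 : a = 1 := congrArg Subtype.val h
      apply hxa
      rw [h1]; simp
    haveI := hR.center_nontrivial
    obtain ⟨z, hz⟩ := exists_ne (1 : Subgroup.center (Cfsg.pCore p G))
    have hzG : ((z : Cfsg.pCore p G) : G) ∈ ZM (Cfsg.pCore p G) := by
      refine ⟨(z : Cfsg.pCore p G).2, ?_⟩
      show ((z : Cfsg.pCore p G) : G) ∈ Subgroup.centralizer (Cfsg.pCore p G : Set G)
      rw [Subgroup.mem_centralizer_iff]
      intro h hh
      have h2 := z.2
      rw [Subgroup.mem_center_iff] at h2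
      have h3 := h2 ⟨h, hh⟩
      exact congrArg Subtype.val h3
    have hz1 : ((z : Cfsg.pCore p G) : G) ≠ 1 := by
      intro h
      apply hz
      ext
      exact h
    apply key (ZM (Cfsg.pCore p G)) (fit_ZM_normal _ (fit_pCore_normal p)) (fit_ZM_ab _)
    obtain ⟨k, hk⟩ := hR ⟨((z : Cfsg.pCore p G) : G), (z : Cfsg.pCore p G).2⟩
    have hk' : ((z : Cfsg.pCore p G) : G) ^ p ^ k = 1 := by
      have := congrArg Subtype.val hk
      simpa using this
    have hord : orderOf ((z : Cfsg.pCore p G) : G) ∣ p ^ k := orderOf_dvd_of_pow_eq_one hk'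
    obtain ⟨j, hj, hj'⟩ := (Nat.dvd_prime_pow hp).1 hord
    have hj0 : j ≠ 0 := by
      rintro rfl
      rw [pow_zero, orderOf_eq_one_iff] at hj'
      exact hz1 hj'
    have hdvd : p ∣ orderOf ((z : Cfsg.pCore p G) : G) := by
      rw [hj']
      exact dvd_pow_self p hj0
    exact hdvd.trans (Subgroup.orderOf_dvd_natCard _ hzG)
  -- `x` centralises every core
  have hcore : ∀ r : Nat.Primes, Cfsg.pCore (r : ℕ) G ≤ Subgroup.centralizer {x} := by
    intro r a ha
    rw [Subgroup.mem_centralizer_iff]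
    intro h hh
    rw [Set.mem_singleton_iff] at hh
    subst hh
    by_cases hrp : (r : ℕ) = p
    · rw [hrp] at ha
      exact hp_core a ha
    · haveI : Fact (r : ℕ).Prime := ⟨r.2⟩
      exact hcon r r.2 hrp (Cfsg.pCore r G) (fit_pCore_normal _)
        (Cfsg.Agent.Lib.Helper55.pCore_isPGroup r G) a ha
  have hF : Cfsg.fittingSubgroup G ≤ Subgroup.centralizer {x} := by
    rw [Cfsg.Agent.S0009.result]
    exact iSup_le hcore
  have hxC : x ∈ Subgroup.centralizer (Cfsg.fittingSubgroup G : Set G) := by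
    rw [Subgroup.mem_centralizer_iff]
    intro h hh
    have := hF hh
    rw [Subgroup.mem_centralizer_iff] at this
    exact (this x rfl).symm
  have hxF : x ∈ Cfsg.fittingSubgroup G := Cfsg.Agent.S0044.result hxC
  apply key (ZM (Cfsg.fittingSubgroup G)) (fit_ZM_normal _ fit_fitting_normal) (fit_ZM_ab _)
  rw [← hx]
  exact Subgroup.orderOf_dvd_natCard _ ⟨hxF, hxC⟩

end Cfsg.Agent.Lib.Helper47.HUPT
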